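import Mathlib
import Cfsg.Agent.TcChain36.M63.Upper
import Cfsg.Agent.TcChain36.M63.Cov3
import Cfsg.Agent.Lib.BOdd
import Cfsg.Agent.Lib.SchurFib
import Cfsg.Agent.Lib.OrthoCardFinal

/-!
# The multiplier of `PΩ₇(3)` is cyclic of order six
-/

set_option autoImplicit false
set_option maxRecDepth 100000
set_option linter.all false

namespace Cfsg.Agent.TcChain36.M63

open Cfsg Matrix
open Cfsg.Agent.Lib.Fi22O7 (Q0 phi phi_inj)
open Cfsg.Agent.Lib.SchurFib (fibP fibΨ fib_stem fib_ker_equiv hasSchur_of_equiv)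
open Cfsg.Agent.Lib.BOdd (sqF poEquiv)

section FieldTr

variable {ι : Type} [Fintype ι] [DecidableEq ι] {F K : Type*} [Field F] [Field K]

theorem mem_iso_iff {F : Type*} [Field F] {Q : (ι → F) → F} {x : GL ι F} :
    x ∈ isometryGroup F Q ↔ ∀ u, Q ((x : Matrix ι ι F) *ᵥ u) = Q u :=
  ⟨fun h u => h u u, fun h u v => h u⟩

/-- The general linear groups of isomorphic fields. -/
def glE (φ : F ≃+* K) : GL ι F ≃* GL ι K := Units.mapEquiv (RingEquiv.mapMatrix φ).toMulEquiv

theorem glE_coe (φ : F ≃+* K) (x : GL ι F) : ((glE φ x : GL ι K) : Matrix ι ι K) = (x : Matrix ι ι F).map φ := rfl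

theorem glE_symm_coe (φ : F ≃+* K) (x : GL ι K) : (((glE φ).symm x : GL ι F) : Matrix ι ι F) = (x : Matrix ι ι K).map φ.symm := rfl

theorem map_mulVec_eq (φ : F ≃+* K) (M : Matrix ι ι F) (u : ι → F) :
    (M.map φ) *ᵥ (fun i => φ (u i)) = fun i => φ ((M *ᵥ u) i) := by
  funext i
  simp [Matrix.mulVec, dotProduct, map_sum]

/-- Isometry groups of forms corresponding under an isomorphism of fields. -/
def isoE (φ : F ≃+* K) {Qf : (ι → F) → F} {Qk : (ι → K) → K} (h : ∀ v, Qk (fun i => φ (v i)) = φ (Qf v)) :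
    isometryGroup F Qf ≃* isometryGroup K Qk where
  toFun x := ⟨glE φ x.1, by
    rw [mem_iso_iff]
    intro w
    have hw : w = fun i => φ (φ.symm (w i)) := by simp
    rw [hw, glE_coe, map_mulVec_eq, h, h, mem_iso_iff.mp x.2]⟩
  invFun y := ⟨(glE φ).symm y.1, by
    rw [mem_iso_iff]
    intro u
    apply φ.injective
    rw [← h, ← h, ← mem_iso_iff.mp y.2 (fun i => φ (u i))]
    congr 1
    have e : (y.1 : Matrix ι ι K) = (((glE φ).symm y.1 : GL ι F) : Matrix ι ι F).map φ := by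
      rw [glE_symm_coe]
      ext i j
      simp
    rw [e, map_mulVec_eq]⟩
  left_inv x := Subtype.ext ((glE φ).symm_apply_apply _)
  right_inv y := Subtype.ext ((glE φ).apply_symm_apply _)
  map_mul' x y := Subtype.ext (map_mul _ _ _)

end FieldTr

section abs

variable {X Y : Type*} [Group X] [Group Y]

/-- An isomorphism restricted to the commutator subgroups. -/
def commE (e : X ≃* Y) : commutator X ≃* commutator Y :=
  (e.subgroupMap (commutator X)).trans (MulEquiv.subgroupCongr (by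
    rw [commutator_def, commutator_def, Subgroup.map_commutator, ← MonoidHom.range_eq_map]
    show ⁅e.toMonoidHom.range, e.toMonoidHom.range⁆ = _
    rw [MonoidHom.range_eq_top.mpr e.surjective]))

/-- An isomorphism modulo the centres. -/
noncomputable def qcE (e : X ≃* Y) : (X ⧸ Subgroup.center X) ≃* (Y ⧸ Subgroup.center Y) :=
  QuotientGroup.congr _ _ e (by
    ext x
    constructor
    · rintro ⟨a, ha, rfl⟩
      rw [SetLike.mem_coe, Subgroup.mem_center_iff] at ha
      rw [Subgroup.mem_center_iff]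
      intro b
      obtain ⟨c, rfl⟩ := e.surjective b
      change e c * e a = e a * e c
      rw [← map_mul, ← map_mul, ha]
    · intro hx
      refine ⟨e.symm x, ?_, by simp⟩
      rw [SetLike.mem_coe, Subgroup.mem_center_iff]
      intro b
      apply e.injective
      rw [map_mul, map_mul, e.apply_symm_apply]
      exact Subgroup.mem_center_iff.1 hx (e b))

end abs

/-- The group of the statement for two fields with three elements. -/
noncomputable def fieldE {F : Type*} [Field F] (φ : F ≃+* ZMod 3) :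
    POmega F (quadFormOdd 3 F) ≃* POmega (ZMod 3) (quadFormOdd 3 (ZMod 3)) :=
  qcE (commE (isoE φ (by
    intro v
    simp [quadFormOdd, map_add, map_pow, map_sum, map_mul])))

theorem form_eq3 : quadFormOdd 3 (ZMod 3) = ⇑Q0 :=
  funext fun v => (Cfsg.Agent.Lib.OrthoCount.qOdd_apply 3 v).symm

theorem card_POmega3 : Nat.card (POmega (ZMod 3) (⇑Q0)) = 4585351680 := by
  have h := Cfsg.Agent.Lib.OrthoCardFinal.card_POmega_odd (F := ZMod 3) (q := 3) (ZMod.card 3) (by decide) 3 (by norm_num)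
  rw [form_eq3] at h
  norm_num [Finset.prod_range_succ] at h
  omega

/-- The presented group is the orthogonal group. -/
theorem exists_gpE : Nonempty (Gp ≃* POmega (ZMod 3) (quadFormOdd 3 (ZMod 3))) := by
  rw [form_eq3]
  haveI : Finite (POmega (ZMod 3) (⇑Q0)) := Nat.finite_of_card_ne_zero (by rw [card_POmega3]; norm_num)
  have hφ : Function.Bijective phi :=
    phi_inj.bijective_of_nat_card_le (by rw [card_Gp, card_POmega3])
  exact ⟨MulEquiv.ofBijective phi hφ⟩

section Spin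

open Cfsg.Agent.Lib.SpinCliff Cfsg.Agent.Lib.OrthoBasic Cfsg.Agent.Lib.OrthoSiegel Cfsg.Agent.Lib.BUpper
  Cfsg.Agent.Lib.SpinFinal QuadraticMap
open scoped commutatorElement

theorem hodd3 : Odd (Fintype.card (ZMod 3)) := by
  rw [ZMod.card]
  decide

universe u in
/-- The kernel of the spin cover has even order. -/
theorem spin_even {F : Type u} [Field F] {V : Type u} [AddCommGroup V] [Module F V] {Q : QuadraticForm F V}
    (hQ : Nondeg Q) (fr : Frame Q) [Finite V] (h2 : (2 : F) ≠ 0) (hcomm : commutator (OG Q) = siegelE Q)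
    {a b c : V} (ha : Q a = 1) (hb : Q b = 1) (hc : Q c = 1)
    (hab : polar Q a b = 0) (hbc : polar Q b c = 0) (hac : polar Q a c = 0) :
    2 ∣ Nat.card ((sY Q).comp (commutator (YY Q)).subtype).ker := by
  haveI : Finite (commutator (YY Q)) := finite_comm hQ fr
  obtain ⟨p₁, hp₁, p₂, hp₂, hm⟩ := exists_m hQ fr h2 hcomm ha hb hc hab hbc hac
  have hmY : ((-1 : (CliffordAlgebra Q)ˣ), (1 : OG Q)) ∈ YY Q := by
    rw [← hm]
    rw [commutatorElement_def]
    exact mul_mem (mul_mem (mul_mem hp₁ hp₂) (inv_mem hp₁)) (inv_mem hp₂)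
  have hmC : (⟨_, hmY⟩ : YY Q) ∈ commutator (YY Q) := by
    have : (⟨_, hmY⟩ : YY Q) = ⁅(⟨p₁, hp₁⟩ : YY Q), (⟨p₂, hp₂⟩ : YY Q)⁆ := Subtype.ext hm.symm
    rw [this]
    exact Subgroup.commutator_mem_commutator (Subgroup.mem_top _) (Subgroup.mem_top _)
  have hmσ : (⟨_, hmC⟩ : commutator (YY Q)) ∈ ((sY Q).comp (commutator (YY Q)).subtype).ker := by
    have : fY Q (⟨_, hmY⟩ : YY Q) = 1 := rfl
    show (QuotientGroup.mk' (Subgroup.center (siegelE Q))) (fY Q (⟨_, hmY⟩ : YY Q)) = 1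
    rw [this, map_one]
  have hne : (-1 : (CliffordAlgebra Q)ˣ) ≠ 1 := by
    intro h
    haveI : Invertible (2 : F) := invertibleOfNonzero h2
    have h3 : ((-1 : (CliffordAlgebra Q)ˣ) : CliffordAlgebra Q) = 1 := by rw [h]; rfl
    rw [Units.val_neg, Units.val_one] at h3
    have h4 : (2 : F) • (1 : CliffordAlgebra Q) = 0 := by
      rw [two_smul]
      nth_rewrite 1 [← h3]
      simp
    have h5 : (1 : CliffordAlgebra Q) = 0 := by
      have := congrArg (fun x => (2⁻¹ : F) • x) h4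
      simpa [smul_smul, inv_mul_cancel₀ h2] using this
    exact one_ne_zero h5
  have hne' : (⟨_, hmσ⟩ : ((sY Q).comp (commutator (YY Q)).subtype).ker) ≠ 1 := by
    intro h
    have := congrArg (fun g : ((sY Q).comp (commutator (YY Q)).subtype).ker => (g.1.1.1).1) h
    exact hne this
  have hsq : (⟨_, hmσ⟩ : ((sY Q).comp (commutator (YY Q)).subtype).ker) ^ 2 = 1 := by
    apply Subtype.ext
    apply Subtype.ext
    apply Subtype.ext
    apply Prod.ext
    · show (-1 : (CliffordAlgebra Q)ˣ) ^ 2 = 1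
      rw [neg_one_sq]
    · show (1 : OG Q) ^ 2 = 1
      rw [one_pow]
  have ho : orderOf (⟨_, hmσ⟩ : ((sY Q).comp (commutator (YY Q)).subtype).ker) = 2 := by
    haveI : Fact (Nat.Prime 2) := ⟨Nat.prime_two⟩
    exact orderOf_eq_prime hsq hne'
  rw [← ho]
  exact orderOf_dvd_natCard _

set_option maxHeartbeats 2000000 in
/-- The spin cover. -/
theorem exists_spin3 : ∃ (Γ : Type) (_ : Group Γ) (_ : Finite Γ) (σ : Γ →* Cfsg.Agent.Lib.BUpper.POV 3 (sqF (ZMod 3))),
    IsStemExtension σ ∧ 2 ∣ Nat.card σ.ker := by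
  have hodd := hodd3
  have h2 : (2 : ZMod 3) ≠ 0 := by decide
  have hQ := Cfsg.Agent.Lib.BOdd.hQ hodd 3
  have fr := (Cfsg.Agent.Lib.BOdd.hfr hodd (m := 3) (by norm_num)).some
  have hcomm := Cfsg.Agent.Lib.BOdd.hcomm hodd (m := 3) (by norm_num)
  have h01 : (⟨0, by omega⟩ : Fin 3) ≠ ⟨1, by omega⟩ := by simp [Fin.ext_iff]
  have ha : Cfsg.Agent.Lib.BTarget.QV (sqF (ZMod 3)) ((0, 1) : Cfsg.Agent.Lib.BTarget.VB 3 (ZMod 3) (ZMod 3)) = 1 := by
    rw [Cfsg.Agent.Lib.BTarget.QV_apply]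
    simp [Cfsg.Agent.Lib.BOdd.sqF_apply]
  have hb : ∀ i : Fin 3, Cfsg.Agent.Lib.BTarget.QV (sqF (ZMod 3)) ((hv i, 0) : Cfsg.Agent.Lib.BTarget.VB 3 (ZMod 3) (ZMod 3)) = 1 := by
    intro i
    rw [Cfsg.Agent.Lib.BTarget.QV_apply]
    simp [Cfsg.Agent.Lib.BOdd.sqF_apply, Q_hv]
  have hab : ∀ i : Fin 3, polar (Cfsg.Agent.Lib.BTarget.QV (sqF (ZMod 3))) ((0, 1) : Cfsg.Agent.Lib.BTarget.VB 3 (ZMod 3) (ZMod 3)) (hv i, 0) = 0 := by
    intro i
    rw [Cfsg.Agent.Lib.BTarget.polar_QV]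
    simp [Cfsg.Agent.Lib.BOdd.polar_sqF]
  have hbc : polar (Cfsg.Agent.Lib.BTarget.QV (sqF (ZMod 3))) ((hv ⟨0, by omega⟩, 0) : Cfsg.Agent.Lib.BTarget.VB 3 (ZMod 3) (ZMod 3)) (hv ⟨1, by omega⟩, 0) = 0 := by
    rw [Cfsg.Agent.Lib.BTarget.polar_QV]
    have h01' : (0 : Fin 3) ≠ 1 := by decide
    simp [Cfsg.Agent.Lib.BOdd.polar_sqF, polar_hv h01']
  haveI : Finite (commutator (YY (Cfsg.Agent.Lib.BTarget.QV (sqF (ZMod 3))))) := finite_comm hQ fr
  refine ⟨commutator (YY (Cfsg.Agent.Lib.BTarget.QV (sqF (ZMod 3)))), inferInstance, inferInstance, (sY _).comp (commutator (YY _)).subtype, stemY hQ fr, ?_⟩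
  exact spin_even hQ fr h2 hcomm ha (hb _) (hb _) (hab _) hbc (hab _)

end Spin

section Final

/-- The kernel for a fibre product. -/
theorem exists_cover6 : ∃ (Γ : Type) (_ : Group Γ) (_ : Finite Γ) (σ : Γ →* Gp), IsStemExtension σ ∧
    Nonempty (σ.ker ≃* Multiplicative (ZMod 6)) := by
  classical
  obtain ⟨eG⟩ := exists_gpE
  let e₀ := poEquiv hodd3 (l := 3) (by norm_num)
  obtain ⟨Γ, i1, i2, σ₀, hσ₀, h2⟩ := exists_spin3
  let σ : Γ →* Gp := (eG.symm.toMonoidHom.comp e₀.symm.toMonoidHom).comp σ₀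
  have hk : ∀ x, x ∈ σ.ker ↔ x ∈ σ₀.ker := by
    intro x
    simp only [MonoidHom.mem_ker, σ, MonoidHom.comp_apply]
    constructor
    · intro h
      have h1 := congrArg eG h
      simp at h1
      exact h1
    · intro h
      rw [h]
      simp
  have hσ : IsStemExtension σ := by
    refine ⟨(eG.symm.surjective.comp e₀.symm.surjective).comp hσ₀.1, ?_, ?_⟩
    · intro x hx
      exact hσ₀.2.1 ((hk x).mp hx)
    · intro x hx
      exact hσ₀.2.2 ((hk x).mp hx)
  have hcc : Nat.card σ.ker = Nat.card σ₀.ker := by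
    have : σ.ker = σ₀.ker := by
      ext x
      exact hk x
    rw [this]
  have hfin6 : Finite (Multiplicative (ZMod 6)) := inferInstanceAs (Finite (ZMod 6))
  have hc6 : Nat.card (Multiplicative (ZMod 6)) = 6 := by
    rw [show Nat.card (Multiplicative (ZMod 6)) = Nat.card (ZMod 6) from rfl, Nat.card_zmod]
  obtain ⟨π, hπ⟩ := upper_main hσ
  have hdvd : Nat.card σ.ker ∣ 6 := by
    have := Subgroup.card_dvd_of_surjective π hπ
    rwa [hc6] at this
  have h2' : 2 ∣ Nat.card σ.ker := by rw [hcc]; exact h2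
  have hcase : Nat.card σ.ker = 2 ∨ Nat.card σ.ker = 6 := by
    have hle := Nat.le_of_dvd (by norm_num) hdvd
    have key : ∀ c, c ≤ 6 → c ∣ 6 → 2 ∣ c → c = 2 ∨ c = 6 := by decide
    exact key _ hle hdvd h2'
  rcases hcase with hc | hc
  · -- the fibre product with the triple cover
    have hcop : Nat.Coprime (Nat.card σ.ker) (Nat.card sig3.ker) := by
      rw [hc, card_ker3]
      norm_num
    have hfst := fib_stem hσ stem3 hcop
    refine ⟨↥(fibP σ sig3), inferInstance, inferInstance, fibΨ σ sig3, hfst, ?_⟩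
    obtain ⟨π', hπ'⟩ := upper_main hfst
    obtain ⟨e⟩ := fib_ker_equiv (π₁ := σ) (π₂ := sig3) σ.ker sig3.ker (MulEquiv.refl _) (MulEquiv.refl _)
    refine Cfsg.Agent.Lib.SpinFinal.finish ?_ hπ'
    rw [hc6, Nat.card_congr e.toEquiv, Nat.card_prod, hc, card_ker3]
  · exact ⟨Γ, i1, i2, σ, hσ, Cfsg.Agent.Lib.SpinFinal.finish (by rw [hc6, hc]) hπ⟩

/-- The final theorem. -/
theorem final {F : Type*} [Field F] [Fintype F] (hF : Fintype.card F = 3) :
    HasCyclicSchurMultiplier (POmega F (quadFormOdd 3 F)) 6 := by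
  have φ : ZMod 3 ≃+* F := ZMod.ringEquivOfPrime F Nat.prime_three hF
  obtain ⟨eG⟩ := exists_gpE
  exact hasSchur_of_equiv ((fieldE φ.symm).trans eG.symm) exists_cover6 (fun Γ _ _ σ hσ => upper_main hσ)

end Final

end Cfsg.Agent.TcChain36.M63
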